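import Mathlib
import Cfsg.Agent.Lib.Helper32.Scn.Tools
import Cfsg.Agent.Lib.Helper53.PGroups

/-!
# S1904 package [A0] (helper20): case (α), `Z(X) = omZ X ⊇` squares and commutators,
`omZ X ≤ X'`.
-/

set_option autoImplicit false

universe u

namespace Cfsg.Agent.Lib.Helper20.Scn

open Cfsg.Agent.Lib.Helper32.Scn

variable {X : Type u} [Group X]

theorem center_aut (ψ : MulAut X) {z : X} (hz : z ∈ Subgroup.center X) :
    ψ z ∈ Subgroup.center X := by
  rw [Subgroup.mem_center_iff]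
  intro g
  have h := Subgroup.mem_center_iff.mp hz (ψ⁻¹ g)
  have h2 := congrArg ψ h
  simpa using h2

/-- The preimage of `Ω₁(Z(X / Z(X)))`. -/
def bigS (X : Type u) [Group X] : Subgroup X where
  carrier := {w | w * w ∈ Subgroup.center X ∧ ∀ g : X, g * w * g⁻¹ * w⁻¹ ∈ Subgroup.center X}
  one_mem' := ⟨by simp, fun g => by simp⟩
  mul_mem' := by
    rintro a b ⟨ha2, ha⟩ ⟨hb2, hb⟩
    refine ⟨?_, fun g => ?_⟩
    · have hc := ha b
      have e : a * b * (a * b) = (a * a) * (b * a * b⁻¹ * a⁻¹) * (b * b) := by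
        calc a * b * (a * b) = a * (b * a * b⁻¹ * a⁻¹) * a * (b * b) := by group
          _ = a * ((b * a * b⁻¹ * a⁻¹) * a) * (b * b) := by group
          _ = a * (a * (b * a * b⁻¹ * a⁻¹)) * (b * b) := by
              rw [Subgroup.mem_center_iff.mp hc a]
          _ = (a * a) * (b * a * b⁻¹ * a⁻¹) * (b * b) := by group
      rw [e]
      exact (Subgroup.center X).mul_mem ((Subgroup.center X).mul_mem ha2 hc) hb2
    · have h1 := ha g
      have h2 := hb g
      have e : g * (a * b) * g⁻¹ * (a * b)⁻¹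
          = (g * a * g⁻¹ * a⁻¹) * (g * b * g⁻¹ * b⁻¹) := by
        calc g * (a * b) * g⁻¹ * (a * b)⁻¹
            = (g * a * g⁻¹ * a⁻¹) * (a * (g * b * g⁻¹ * b⁻¹)) * a⁻¹ := by group
          _ = (g * a * g⁻¹ * a⁻¹) * ((g * b * g⁻¹ * b⁻¹) * a) * a⁻¹ := by
              rw [Subgroup.mem_center_iff.mp h2 a]
          _ = (g * a * g⁻¹ * a⁻¹) * (g * b * g⁻¹ * b⁻¹) := by group
      rw [e]
      exact (Subgroup.center X).mul_mem h1 h2
  inv_mem' := by
    rintro a ⟨ha2, ha⟩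
    refine ⟨?_, fun g => ?_⟩
    · have : a⁻¹ * a⁻¹ = (a * a)⁻¹ := by group
      rw [this]; exact (Subgroup.center X).inv_mem ha2
    · have h1 := ha g
      have e : g * a⁻¹ * g⁻¹ * a⁻¹⁻¹ = a⁻¹ * (g * a * g⁻¹ * a⁻¹)⁻¹ * a := by group
      rw [e, Subgroup.mem_center_iff.mp ((Subgroup.center X).inv_mem h1) a⁻¹]
      have : (g * a * g⁻¹ * a⁻¹)⁻¹ * a⁻¹ * a = (g * a * g⁻¹ * a⁻¹)⁻¹ := by group
      rw [this]; exact (Subgroup.center X).inv_mem h1

theorem bigS_aut (ψ : MulAut X) {w : X} (hw : w ∈ bigS X) : ψ w ∈ bigS X := by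
  refine ⟨?_, fun g => ?_⟩
  · rw [← map_mul]; exact center_aut ψ hw.1
  · have h := center_aut ψ (hw.2 (ψ⁻¹ g))
    simpa using h

instance bigS_normal : (bigS X).Normal := by
  constructor
  intro w hw g
  have h := bigS_aut (MulAut.conj g) hw
  simpa using h

/-- Commutators with elements of `bigS X` lie in `omZ X`. -/
theorem bigS_comm_mem_omZ {s : X} (hs : s ∈ bigS X) (x : X) : x * s * x⁻¹ * s⁻¹ ∈ omZ X := by
  have hc := hs.2 x
  refine ⟨hc, ?_⟩
  obtain ⟨c, hcdef⟩ : ∃ c, c = x * s * x⁻¹ * s⁻¹ := ⟨_, rfl⟩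
  rw [← hcdef] at hc ⊢
  have hcs : ∀ g, g * c = c * g := Subgroup.mem_center_iff.mp hc
  have hss : ∀ g, g * (s * s) = (s * s) * g := Subgroup.mem_center_iff.mp hs.1
  have e1 : (c * c) * (s * s) = s * s := by
    calc (c * c) * (s * s) = c * (c * s) * s := by group
      _ = c * (s * c) * s := by rw [hcs s]
      _ = (c * s) * (c * s) := by group
      _ = (x * s * x⁻¹) * (x * s * x⁻¹) := by rw [hcdef]; group
      _ = x * (s * s) * x⁻¹ := by group
      _ = (s * s) * x * x⁻¹ := by rw [hss x]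
      _ = s * s := by group
  exact mul_eq_right.mp e1

/-- `x ↦ [x, s]` is multiplicative for `s ∈ bigS X`. -/
theorem bigS_comm_mul {s : X} (hs : s ∈ bigS X) (x y : X) :
    (x * y) * s * (x * y)⁻¹ * s⁻¹ = (x * s * x⁻¹ * s⁻¹) * (y * s * y⁻¹ * s⁻¹) := by
  have hcy := Subgroup.mem_center_iff.mp (hs.2 y)
  calc (x * y) * s * (x * y)⁻¹ * s⁻¹ = x * (y * s * y⁻¹ * s⁻¹) * (s * x⁻¹ * s⁻¹) := by group
    _ = (y * s * y⁻¹ * s⁻¹) * x * (s * x⁻¹ * s⁻¹) := by rw [hcy x]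
    _ = (y * s * y⁻¹ * s⁻¹) * (x * s * x⁻¹ * s⁻¹) := by group
    _ = (x * s * x⁻¹ * s⁻¹) * (y * s * y⁻¹ * s⁻¹) := (hcy _).symm

theorem comm_of_comm_eq_one {g s : X} (h : g * s * g⁻¹ * s⁻¹ = 1) : g * s = s * g := by
  calc g * s = (g * s * g⁻¹ * s⁻¹) * s * g := by group
    _ = s * g := by rw [h, one_mul]

/-- Squares and commutators centralize `bigS X`. -/
theorem bigS_centralizes {s : X} (hs : s ∈ bigS X) (x y : X) :
    (x * x) * s = s * (x * x) ∧ (x * y * x⁻¹ * y⁻¹) * s = s * (x * y * x⁻¹ * y⁻¹) := by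
  have ha := bigS_comm_mem_omZ hs x
  have hb := bigS_comm_mem_omZ hs y
  constructor
  · apply comm_of_comm_eq_one
    rw [bigS_comm_mul hs x x]
    exact omZ_sq ha
  · apply comm_of_comm_eq_one
    have hxi : x⁻¹ * s * x⁻¹⁻¹ * s⁻¹ = x * s * x⁻¹ * s⁻¹ := by
      have h1 := bigS_comm_mul hs x⁻¹ x
      have h0 : (x⁻¹ * x) * s * (x⁻¹ * x)⁻¹ * s⁻¹ = 1 := by group
      rw [h0] at h1
      have h2 : x⁻¹ * s * x⁻¹⁻¹ * s⁻¹ = (x * s * x⁻¹ * s⁻¹)⁻¹ :=
        eq_inv_of_mul_eq_one_left h1.symm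
      rw [h2, omZ_inv ha]
    have hyi : y⁻¹ * s * y⁻¹⁻¹ * s⁻¹ = y * s * y⁻¹ * s⁻¹ := by
      have h1 := bigS_comm_mul hs y⁻¹ y
      have h0 : (y⁻¹ * y) * s * (y⁻¹ * y)⁻¹ * s⁻¹ = 1 := by group
      rw [h0] at h1
      have h2 : y⁻¹ * s * y⁻¹⁻¹ * s⁻¹ = (y * s * y⁻¹ * s⁻¹)⁻¹ :=
        eq_inv_of_mul_eq_one_left h1.symm
      rw [h2, omZ_inv hb]
    rw [bigS_comm_mul hs (x * y * x⁻¹) y⁻¹, bigS_comm_mul hs (x * y) x⁻¹, bigS_comm_mul hs x y,
      hxi, hyi]
    exact (mul_assoc _ _ _).trans (omZ_sq ((omZ X).mul_mem ha hb))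

/-- The centralizer of `bigS X`. -/
def cenS (X : Type u) [Group X] : Subgroup X := Subgroup.centralizer (bigS X : Set X)

theorem mem_cenS {d : X} : d ∈ cenS X ↔ ∀ s ∈ bigS X, s * d = d * s :=
  Subgroup.mem_centralizer_iff

theorem cenS_aut (ψ : MulAut X) {d : X} (hd : d ∈ cenS X) : ψ d ∈ cenS X := by
  rw [mem_cenS] at hd ⊢
  intro s hs
  have h := hd (ψ⁻¹ s) (bigS_aut ψ⁻¹ hs)
  have h2 := congrArg ψ h
  simpa using h2

instance cenS_normal : (cenS X).Normal := by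
  constructor
  intro w hw g
  have h := cenS_aut (MulAut.conj g) hw
  simpa using h

/-- `Z(bigS X)`. -/
def zS (X : Type u) [Group X] : Subgroup X := bigS X ⊓ cenS X

instance zS_normal : (zS X).Normal := by
  constructor
  intro n hn g
  exact ⟨bigS_normal.conj_mem n hn.1 g, cenS_normal.conj_mem n hn.2 g⟩

theorem zS_aut (ψ : MulAut X) {d : X} (hd : d ∈ zS X) : ψ d ∈ zS X :=
  ⟨bigS_aut ψ hd.1, cenS_aut ψ hd.2⟩

theorem zS_comm {a : X} (ha : a ∈ zS X) {b : X} (hb : b ∈ zS X) : a * b = b * a :=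
  mem_cenS.mp hb.2 a ha.1

/-- A non-trivial normal subgroup of a finite 2-group contains a central involution. -/
theorem exists_central_invol {R : Type*} [Group R] [Finite R] (hR : IsPGroup 2 R)
    (N : Subgroup R) [N.Normal] (hN : N ≠ ⊥) :
    ∃ y ∈ N, y ∈ Subgroup.center R ∧ y * y = 1 ∧ y ≠ 1 := by
  have : Fact (Nat.Prime 2) := ⟨Nat.prime_two⟩
  obtain ⟨z, hzB, hz1, hzc⟩ :=
    Cfsg.Agent.Lib.Helper53.exists_mem_center_of_normal_of_ne_bot hR N hN
  have hKne : N ⊓ Subgroup.center R ≠ ⊥ := by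
    intro hc
    have hz : z ∈ N ⊓ Subgroup.center R := ⟨hzB, hzc⟩
    rw [hc, Subgroup.mem_bot] at hz
    exact hz1 hz
  have hdvd : 2 ∣ Nat.card ↥(N ⊓ Subgroup.center R) := by
    rcases (hR.to_subgroup (N ⊓ Subgroup.center R)).card_eq_or_dvd with h1 | h1
    · exact absurd (Subgroup.card_eq_one.mp h1) hKne
    · exact h1
  obtain ⟨y, hy⟩ := exists_prime_orderOf_dvd_card' 2 hdvd
  refine ⟨(y : R), y.2.1, y.2.2, ?_, ?_⟩
  · have h1 : y ^ 2 = 1 := by rw [← hy, pow_orderOf_eq_one]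
    have h2 := congrArg (Subtype.val : ↥(N ⊓ Subgroup.center R) → R) h1
    rw [pow_two] at h2
    simpa using h2
  · intro hc
    have hy' : y = 1 := Subtype.ext hc
    rw [hy', orderOf_one] at hy
    omega

/-- A normal subgroup not inside the centre contains a non-central element of `bigS X`. -/
theorem lift_central_invol [Finite X] (hX : IsPGroup 2 X) (C : Subgroup X) [hCn : C.Normal]
    (hC : ¬ C ≤ Subgroup.center X) :
    ∃ d ∈ C, d ∉ Subgroup.center X ∧ d ∈ bigS X := by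
  obtain ⟨d₀, hd₀C, hd₀Z⟩ := SetLike.not_le_iff_exists.mp hC
  have hQ : IsPGroup 2 (X ⧸ Subgroup.center X) := hX.to_quotient (Subgroup.center X)
  have hNn : (C.map (QuotientGroup.mk' (Subgroup.center X))).Normal :=
    hCn.map _ (QuotientGroup.mk'_surjective _)
  have hNne : C.map (QuotientGroup.mk' (Subgroup.center X)) ≠ ⊥ := by
    intro hc
    have hmem : QuotientGroup.mk' (Subgroup.center X) d₀ ∈
        C.map (QuotientGroup.mk' (Subgroup.center X)) := Subgroup.mem_map_of_mem _ hd₀C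
    rw [hc, Subgroup.mem_bot] at hmem
    exact hd₀Z ((QuotientGroup.eq_one_iff d₀).mp hmem)
  obtain ⟨y, hyN, hyc, hy2, hy1⟩ := exists_central_invol hQ _ hNne
  obtain ⟨d, hdC, rfl⟩ := Subgroup.mem_map.mp hyN
  refine ⟨d, hdC, fun hdZ => hy1 ((QuotientGroup.eq_one_iff d).mpr hdZ), ?_, fun g => ?_⟩
  · rw [← QuotientGroup.eq_one_iff]
    have : ((d * d : X) : X ⧸ Subgroup.center X) =
        QuotientGroup.mk' (Subgroup.center X) d * QuotientGroup.mk' (Subgroup.center X) d := rfl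
    rw [this]
    exact hy2
  · rw [← QuotientGroup.eq_one_iff]
    have hcomm := Subgroup.mem_center_iff.mp hyc (QuotientGroup.mk' (Subgroup.center X) g)
    have e : ((g * d * g⁻¹ * d⁻¹ : X) : X ⧸ Subgroup.center X) =
        QuotientGroup.mk' (Subgroup.center X) g * QuotientGroup.mk' (Subgroup.center X) d *
          (QuotientGroup.mk' (Subgroup.center X) g)⁻¹ *
          (QuotientGroup.mk' (Subgroup.center X) d)⁻¹ := rfl
    rw [e, hcomm]
    group

theorem lemA0 (h1 : LemA0a.{u}) (h2 : LemFix.{u}) : LemA0.{u} := by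
  intro X _ _ A h hfix
  -- (1) `A` fixes the centre pointwise
  obtain ⟨-, hZfix⟩ := h1 A h hfix (Subgroup.center X) inferInstance
    (fun ψ _ z hz => center_aut ψ hz) (fun a _ b hb => Subgroup.mem_center_iff.mp hb a)
  -- (5) `Z(S) ≤ Z`
  obtain ⟨hZS, -⟩ := h1 A h hfix (zS X) zS_normal (fun ψ _ b hb => zS_aut ψ hb)
    (fun a ha b hb => zS_comm ha hb)
  -- (6) `C_X(S) ≤ Z`
  have hcen : cenS X ≤ Subgroup.center X := by
    by_contra hC
    obtain ⟨d, hdC, hdZ, hdS⟩ := lift_central_invol h.two (cenS X) hC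
    exact hdZ (hZS ⟨hdS, hdC⟩)
  -- (7) `S = X`
  have hsqZ : ∀ x : X, x * x ∈ Subgroup.center X := fun x =>
    hcen (mem_cenS.mpr (fun s hs => ((bigS_centralizes hs x x).1).symm))
  have hcommZ : ∀ x y : X, x * y * x⁻¹ * y⁻¹ ∈ Subgroup.center X := fun x y =>
    hcen (mem_cenS.mpr (fun s hs => ((bigS_centralizes hs x y).2).symm))
  have hall : ∀ x : X, x ∈ bigS X := fun x => ⟨hsqZ x, fun g => hcommZ g x⟩
  have hcomm : ∀ x y : X, x * y * x⁻¹ * y⁻¹ ∈ omZ X := fun x y =>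
    bigS_comm_mem_omZ (hall y) x
  -- (8) squares
  have hmulsq : ∀ a b : X, (a * b) * (a * b) = (a * a) * (a⁻¹ * b * a * b⁻¹) * (b * b) := by
    intro a b
    group
  let N : Subgroup X :=
    { carrier := {x | x * x ∈ omZ X}
      one_mem' := by
        show (1 : X) * 1 ∈ omZ X
        rw [one_mul]; exact (omZ X).one_mem
      mul_mem' := by
        intro a b ha hb
        show (a * b) * (a * b) ∈ omZ X
        rw [hmulsq a b]
        have hc := hcomm a⁻¹ b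
        rw [inv_inv] at hc
        exact (omZ X).mul_mem ((omZ X).mul_mem ha hc) hb
      inv_mem' := by
        intro a ha
        show a⁻¹ * a⁻¹ ∈ omZ X
        have : a⁻¹ * a⁻¹ = (a * a)⁻¹ := by group
        rw [this]; exact (omZ X).inv_mem ha }
  have hsq : ∀ x : X, x * x ∈ omZ X := by
    have hN : ∀ x : X, x ∈ N := by
      apply h.top_of_mem N
      intro ψ hψ x
      show (x⁻¹ * ψ x) * (x⁻¹ * ψ x) ∈ omZ X
      have hc := hcomm x (ψ x)
      have e : (x⁻¹ * ψ x) * (x⁻¹ * ψ x) = x * ψ x * x⁻¹ * (ψ x)⁻¹ := by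
        have e0 : (x⁻¹ * ψ x) * (x⁻¹ * ψ x) =
            (x⁻¹ * x⁻¹) * (x * ψ x * x⁻¹ * (ψ x)⁻¹) * (ψ x * ψ x) := by group
        rw [e0, ← map_mul ψ x x, hZfix ψ hψ (x * x) (hsqZ x), omZ_comm hc (x⁻¹ * x⁻¹)]
        group
      rw [e]
      exact hc
    exact fun x => hN x
  have hcomV : commutator X ≤ omZ X := by
    rw [commutator_eq_closure, Subgroup.closure_le]
    rintro g ⟨a, b, rfl⟩
    rw [commutatorElement_def]
    exact hcomm a b
  obtain ⟨j, hj⟩ := h.odd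
  refine ⟨h, ?_, hsq, hcomm, hfix, ?_⟩
  · -- cen
    intro z hz
    refine ⟨hz, ?_⟩
    have hm := hcomV (h2 A h z (fun ψ hψ => hZfix ψ hψ z hz))
    rw [hj] at hm
    have e1 : z ^ (2 * j + 1) * z ^ (2 * j + 1) = 1 := omZ_sq hm
    have e2 : (z * z) * (z * z) = 1 := omZ_sq (hsq z)
    have e3 : z ^ 4 = 1 := by
      rw [show (4 : ℕ) = 2 + 2 from rfl, pow_add, pow_two]
      exact e2
    have e4 : z ^ (2 * j + 1) * z ^ (2 * j + 1) = (z ^ 4) ^ j * z ^ 2 := by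
      rw [← pow_add, ← pow_mul, ← pow_add]
      congr 1
      ring
    rw [e4, e3, one_pow, one_mul] at e1
    rw [← pow_two]
    exact e1
  · -- der
    intro v hv
    have hm := h2 A h v (fun ψ hψ => hfix ψ hψ v hv)
    rw [hj] at hm
    have e : v ^ (2 * j + 1) = v := by
      rw [pow_succ, pow_mul, pow_two, omZ_sq hv, one_pow, one_mul]
    rw [e] at hm
    exact hm

end Cfsg.Agent.Lib.Helper20.Scn
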