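import Mathlib
import Cfsg.Agent.Lib.Helper32.Scn.Tools
import Cfsg.Agent.Lib.Helper53.PGroups

/-!
# S1904 package [B0] (helper20): the context of case (β).
-/

set_option autoImplicit false

universe u

namespace Cfsg.Agent.Lib.Helper20.Scn

open Cfsg.Agent.Lib.Helper32.Scn

variable {X : Type u} [Group X]

/-- The four elements of `omZ X` when `|omZ X| = 4`. -/
theorem omZ_four_cases (h4 : Nat.card (omZ X) = 4) {a b : X} (ha : a ∈ omZ X) (hb : b ∈ omZ X)
    (ha1 : a ≠ 1) (hb1 : b ≠ 1) (hab : a ≠ b) :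
    ∀ u ∈ omZ X, u = 1 ∨ u = a ∨ u = b ∨ u = a * b := by
  classical
  have hfin : Finite (omZ X) := Nat.finite_of_card_ne_zero (by rw [h4]; norm_num)
  have := Fintype.ofFinite (omZ X)
  have hab' : a * b ∈ omZ X := (omZ X).mul_mem ha hb
  have h1 : a * b ≠ 1 := by
    intro h
    have : b = a⁻¹ := eq_inv_of_mul_eq_one_right h
    rw [omZ_inv ha] at this
    exact hab this.symm
  have h2 : a * b ≠ a := by
    intro h
    exact hb1 (mul_eq_left.mp h)
  have h3 : a * b ≠ b := by
    intro h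
    exact ha1 (mul_eq_right.mp h)
  let S : Finset (omZ X) := {⟨1, (omZ X).one_mem⟩, ⟨a, ha⟩, ⟨b, hb⟩, ⟨a * b, hab'⟩}
  have hS : S.card = 4 := by
    rw [Finset.card_insert_of_notMem, Finset.card_insert_of_notMem, Finset.card_insert_of_notMem,
      Finset.card_singleton]
    · simp only [Finset.mem_singleton, Subtype.mk.injEq]; exact fun hc => h3 hc.symm
    · simp only [Finset.mem_insert, Finset.mem_singleton, Subtype.mk.injEq, not_or]
      exact ⟨hab, fun hc => h2 hc.symm⟩
    · simp only [Finset.mem_insert, Finset.mem_singleton, Subtype.mk.injEq, not_or]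
      exact ⟨fun hc => ha1 hc.symm, fun hc => hb1 hc.symm, fun hc => h1 hc.symm⟩
  have hcard : Fintype.card (omZ X) = 4 := by rw [← Nat.card_eq_fintype_card, h4]
  have hSu : S = Finset.univ := Finset.eq_univ_of_card S (by rw [hS, hcard])
  intro u hu
  have hmem : (⟨u, hu⟩ : omZ X) ∈ S := by rw [hSu]; exact Finset.mem_univ _
  simp only [S, Finset.mem_insert, Finset.mem_singleton, Subtype.mk.injEq] at hmem
  exact hmem

/-- An automorphism of odd order whose square fixes `u` fixes `u`. -/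
theorem aut_fix_of_sq_fix (θ : MulAut X) {m : ℕ} (hm : Odd m) (hθ : θ ^ m = 1) {u : X}
    (h2 : θ (θ u) = u) : θ u = u := by
  obtain ⟨j, rfl⟩ := hm
  have key : ∀ (i : ℕ) (y : X), θ (θ y) = y → (θ ^ (2 * i)) y = y := by
    intro i
    induction i with
    | zero => intro y _; simp
    | succ i ih =>
      intro y hy
      have : θ ^ (2 * (i + 1)) = θ ^ (2 * i) * θ * θ := by
        rw [mul_add, mul_one, pow_add, pow_two, mul_assoc]
      rw [this, MulAut.mul_apply, MulAut.mul_apply, hy, ih y hy]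
  have h3 : θ (θ (θ u)) = θ u := by rw [h2]
  have h4 := key j (θ u) h3
  have h5 : (θ ^ (2 * j + 1)) u = u := by rw [hθ]; rfl
  rw [pow_succ, MulAut.mul_apply, h4] at h5
  exact h5

theorem aut_pow_card (A : Subgroup (MulAut X)) {θ : MulAut X} (hθ : θ ∈ A) :
    θ ^ Nat.card A = 1 := by
  have h1 : (⟨θ, hθ⟩ : A) ^ Nat.card A = 1 := pow_card_eq_one'
  have h2 := congrArg (Subtype.val : A → MulAut X) h1
  rw [Subgroup.coe_pow, Subgroup.coe_one] at h2
  exact h2

theorem aut_ne_one (θ : MulAut X) {u : X} (hu : u ≠ 1) : θ u ≠ 1 := by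
  intro hc
  apply hu
  have : θ u = θ 1 := by rw [hc, map_one]
  exact θ.injective this

theorem lemB0 (hI : LemInv8.{u}) : LemB0.{u} := by
  intro X _ _ A h hex
  obtain ⟨φ, hφA, v, hv, hφv⟩ := hex
  have : Fact (Nat.Prime 2) := ⟨Nat.prime_two⟩
  classical
  have hv1 : v ≠ 1 := by
    rintro rfl
    exact hφv (map_one φ)
  have hφv1 : φ v ≠ 1 := aut_ne_one φ hv1
  have hφvV : φ v ∈ omZ X := omZ_aut φ hv
  -- |V| = 4
  have hle : Nat.card (omZ X) ≤ 4 := h.noE8 (omZ X) inferInstance (fun e he => omZ_sq he)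
  have hV4 : Nat.card (omZ X) = 4 := by
    obtain ⟨n, hn⟩ := (h.two.to_subgroup (omZ X)).exists_card_eq
    have := Fintype.ofFinite (omZ X)
    have h3 : 3 ≤ Nat.card (omZ X) := by
      rw [Nat.card_eq_fintype_card]
      have hc : ({⟨1, (omZ X).one_mem⟩, ⟨v, hv⟩, ⟨φ v, hφvV⟩} : Finset (omZ X)).card = 3 := by
        rw [Finset.card_insert_of_notMem, Finset.card_insert_of_notMem, Finset.card_singleton]
        · simp only [Finset.mem_singleton, Subtype.mk.injEq]; exact fun hc => hφv hc.symm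
        · simp only [Finset.mem_insert, Finset.mem_singleton, Subtype.mk.injEq, not_or]
          exact ⟨fun hc => hv1 hc.symm, fun hc => hφv1 hc.symm⟩
      rw [← hc]
      exact Finset.card_le_univ _
    rw [hn] at h3 hle ⊢
    have hn2 : n = 2 := by
      rcases n with _ | _ | _ | n
      · norm_num at h3
      · norm_num at h3
      · rfl
      · exfalso
        have : 8 ≤ 2 ^ (n + 3) := by
          calc 8 = 1 * 8 := by norm_num
            _ ≤ 2 ^ n * 8 := Nat.mul_le_mul_right 8 Nat.one_le_two_pow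
            _ = 2 ^ (n + 3) := by ring
        omega
    rw [hn2]
    norm_num
  -- KEY
  have key : ∀ θ ∈ A, ∀ v₁ ∈ omZ X, v₁ ≠ 1 → θ v₁ = v₁ → ∀ u ∈ omZ X, θ u = u := by
    intro θ hθ v₁ hv₁ hv₁1 hfix u hu
    by_cases hu1 : u = 1
    · rw [hu1, map_one]
    by_cases huv : u = v₁
    · rw [huv, hfix]
    have hθu : θ u ∈ omZ X := omZ_aut θ hu
    have hθu1 : θ u ≠ 1 := aut_ne_one θ hu1
    have hθuv : θ u ≠ v₁ := by
      intro hc
      rw [← hfix] at hc
      exact huv (θ.injective hc)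
    rcases omZ_four_cases hV4 hv₁ hu hv₁1 hu1 (Ne.symm huv) (θ u) hθu with hc | hc | hc | hc
    · exact absurd hc hθu1
    · exact absurd hc hθuv
    · exact hc
    · exfalso
      have h2 : θ (θ u) = u := by
        rw [hc, map_mul, hfix, hc, ← mul_assoc, omZ_sq hv₁, one_mul]
      have h3 := aut_fix_of_sq_fix θ h.odd (aut_pow_card A hθ) h2
      rw [hc] at h3
      exact hv₁1 (mul_eq_right.mp h3)
  have hφV : ∀ v' ∈ omZ X, v' ≠ 1 → φ v' ≠ v' := by
    intro v' hv' hv'1 hc
    exact hφv (key φ hφA v' hv' hv'1 hc v hv)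
  have hφ2 : ∀ v' ∈ omZ X, v' ≠ 1 → φ (φ v') = v' * φ v' := by
    intro v' hv' hv'1
    have ha := omZ_aut φ hv'
    have ha1 := aut_ne_one φ hv'1
    have hb := omZ_aut φ ha
    have hb1 := aut_ne_one φ ha1
    rcases omZ_four_cases hV4 hv' ha hv'1 ha1 (Ne.symm (hφV v' hv' hv'1)) _ hb with
      hc | hc | hc | hc
    · exact absurd hc hb1
    · exfalso
      exact hφV v' hv' hv'1 (aut_fix_of_sq_fix φ h.odd (aut_pow_card A hφA) hc)
    · exact absurd hc (hφV _ ha ha1)
    · exact hc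
  have Vc : ∀ v' ∈ omZ X, v' ≠ 1 → ∀ u ∈ omZ X,
      u = 1 ∨ u = v' ∨ u = φ v' ∨ u = φ (φ v') := by
    intro v' hv' hv'1 u hu
    have ha := omZ_aut φ hv'
    have ha1 := aut_ne_one φ hv'1
    rw [hφ2 v' hv' hv'1]
    exact omZ_four_cases hV4 hv' ha hv'1 ha1 (Ne.symm (hφV v' hv' hv'1)) u hu
  refine ⟨φ, ⟨h, hV4, hφA, hφV, ?_, ?_, ?_⟩⟩
  · -- actV
    intro θ hθ
    have hθv : θ v ∈ omZ X := omZ_aut θ hv
    rcases Vc v hv hv1 (θ v) hθv with hc | hc | hc | hc
    · exact absurd hc (aut_ne_one θ hv1)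
    · left
      exact key θ hθ v hv hv1 hc
    · right; left
      have hmem : φ⁻¹ * θ ∈ A := A.mul_mem (A.inv_mem hφA) hθ
      have hfix : (φ⁻¹ * θ) v = v := by
        rw [MulAut.mul_apply, hc, MulAut.inv_apply_self]
      intro u hu
      have h1 := key _ hmem v hv hv1 hfix u hu
      rw [MulAut.mul_apply] at h1
      have h2 := congrArg φ h1
      rw [MulAut.apply_inv_self] at h2
      exact h2
    · right; right
      have hmem : φ⁻¹ * φ⁻¹ * θ ∈ A :=
        A.mul_mem (A.mul_mem (A.inv_mem hφA) (A.inv_mem hφA)) hθ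
      have hfix : (φ⁻¹ * φ⁻¹ * θ) v = v := by
        rw [MulAut.mul_apply, MulAut.mul_apply, hc, MulAut.inv_apply_self,
          MulAut.inv_apply_self]
      intro u hu
      have h1 := key _ hmem v hv hv1 hfix u hu
      rw [MulAut.mul_apply, MulAut.mul_apply] at h1
      have h2 := congrArg (fun y => φ (φ y)) h1
      simp only [MulAut.apply_inv_self] at h2
      exact h2
  · -- inv
    intro t ht hg
    exact hI h.noE8 hV4 t ht hg
  · -- abel
    intro B hBn hBA hBab hBne
    obtain ⟨z, hzB, hz1, hzc⟩ :=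
      Cfsg.Agent.Lib.Helper53.exists_mem_center_of_normal_of_ne_bot h.two B hBne
    have hKne : B ⊓ Subgroup.center X ≠ ⊥ := by
      intro hc
      have hz : z ∈ B ⊓ Subgroup.center X := ⟨hzB, hzc⟩
      rw [hc, Subgroup.mem_bot] at hz
      exact hz1 hz
    have hdvd : 2 ∣ Nat.card ↥(B ⊓ Subgroup.center X) := by
      rcases (h.two.to_subgroup (B ⊓ Subgroup.center X)).card_eq_or_dvd with h1 | h1
      · exact absurd (Subgroup.card_eq_one.mp h1) hKne
      · exact h1
    obtain ⟨y, hy⟩ := exists_prime_orderOf_dvd_card' 2 hdvd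
    have hyB : (y : X) ∈ B := y.2.1
    have hyc : (y : X) ∈ Subgroup.center X := y.2.2
    have hy2 : (y : X) * (y : X) = 1 := by
      have h1 : y ^ 2 = 1 := by rw [← hy, pow_orderOf_eq_one]
      have h2 := congrArg (Subtype.val : ↥(B ⊓ Subgroup.center X) → X) h1
      rw [pow_two] at h2
      simpa using h2
    have hy1 : (y : X) ≠ 1 := by
      intro hc
      have hy' : y = 1 := Subtype.ext hc
      rw [hy', orderOf_one] at hy
      omega
    have hyV : (y : X) ∈ omZ X := ⟨hyc, hy2⟩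
    have hVB : omZ X ≤ B := by
      intro u hu
      rcases Vc _ hyV hy1 u hu with hc | hc | hc | hc
      · rw [hc]; exact B.one_mem
      · rw [hc]; exact hyB
      · rw [hc]; exact hBA φ hφA _ hyB
      · rw [hc]; exact hBA φ hφA _ (hBA φ hφA _ hyB)
    refine ⟨hVB, ?_⟩
    let Ω : Subgroup X :=
      { carrier := {b | b ∈ B ∧ b * b = 1}
        one_mem' := ⟨B.one_mem, by simp⟩
        mul_mem' := by
          rintro a b ⟨ha, ha2⟩ ⟨hb, hb2⟩
          refine ⟨B.mul_mem ha hb, ?_⟩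
          calc a * b * (a * b) = a * (b * a) * b := by group
            _ = a * (a * b) * b := by rw [hBab b hb a ha]
            _ = (a * a) * (b * b) := by group
            _ = 1 := by rw [ha2, hb2, one_mul]
        inv_mem' := by
          rintro a ⟨ha, ha2⟩
          refine ⟨B.inv_mem ha, ?_⟩
          calc a⁻¹ * a⁻¹ = (a * a)⁻¹ := by group
            _ = 1 := by rw [ha2, inv_one] }
    have hΩn : Ω.Normal := by
      constructor
      rintro a ⟨ha, ha2⟩ g
      refine ⟨hBn.conj_mem a ha g, ?_⟩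
      calc g * a * g⁻¹ * (g * a * g⁻¹) = g * (a * a) * g⁻¹ := by group
        _ = 1 := by rw [ha2]; group
    have hΩ4 : Nat.card Ω ≤ 4 := h.noE8 Ω hΩn (fun e he => he.2)
    have hVΩ : omZ X ≤ Ω := fun u hu => ⟨hVB hu, omZ_sq hu⟩
    have hEq : omZ X = Ω := Subgroup.eq_of_le_of_card_ge hVΩ (by rw [hV4]; exact hΩ4)
    intro b hb hb2
    rw [hEq]
    exact ⟨hb, hb2⟩

end Cfsg.Agent.Lib.Helper20.Scn
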